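import Cfsg.Agent.Lib.Classical.ExcIso.Common

/-!
Alternating `4 × 4` matrices, the Pfaffian and its duality.
-/

set_option autoImplicit false

namespace Cfsg.Agent.Lib.Classical.ExcIso

open Matrix

variable {K : Type*} [CommRing K]

/-- An alternating matrix from its upper entries. -/
def alt4 (x : Fin 6 → K) : Matrix (Fin 4) (Fin 4) K :=
  !![0, x 0, x 1, x 2; -x 0, 0, x 3, x 4; -x 1, -x 3, 0, x 5; -x 2, -x 4, -x 5, 0]

/-- The upper entries. -/
def upper (M : Matrix (Fin 4) (Fin 4) K) : Fin 6 → K :=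
  ![M 0 1, M 0 2, M 0 3, M 1 2, M 1 3, M 2 3]

/-- The action on alternating matrices. -/
def act (g : Matrix (Fin 4) (Fin 4) K) (x : Fin 6 → K) : Fin 6 → K :=
  upper (g * alt4 x * g.transpose)

/-- The Pfaffian. -/
def pf (x : Fin 6 → K) : K := x 0 * x 5 - x 1 * x 4 + x 2 * x 3

/-- The duality. -/
def dl (x : Fin 6 → K) : Fin 6 → K := ![x 5, -x 4, x 3, x 2, -x 1, x 0]

lemma upper_alt4 (x : Fin 6 → K) : upper (alt4 x) = x := by
  ext i; fin_cases i <;> simp [upper, alt4]

lemma alt4_injective : Function.Injective (alt4 : (Fin 6 → K) → _) :=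
  fun x y h => by rw [← upper_alt4 x, h, upper_alt4]

lemma alt4_add (x y : Fin 6 → K) : alt4 (x + y) = alt4 x + alt4 y := by
  ext i j; fin_cases i <;> fin_cases j <;> simp [alt4] <;> ring

lemma alt4_smul (c : K) (x : Fin 6 → K) : alt4 (c • x) = c • alt4 x := by
  ext i j; fin_cases i <;> fin_cases j <;> simp [alt4]

set_option maxHeartbeats 1000000 in
lemma alt4_act (g : Matrix (Fin 4) (Fin 4) K) (x : Fin 6 → K) :
    alt4 (act g x) = g * alt4 x * g.transpose := by
  ext i j
  fin_cases i <;> fin_cases j <;>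
    simp [alt4, act, upper, Matrix.mul_apply, Fin.sum_univ_four] <;> ring

lemma act_mul (g h : Matrix (Fin 4) (Fin 4) K) (x : Fin 6 → K) : act (g * h) x = act g (act h x) := by
  refine alt4_injective ?_
  simp only [alt4_act, Matrix.transpose_mul, Matrix.mul_assoc]

lemma act_one (x : Fin 6 → K) : act 1 x = x := by
  refine alt4_injective ?_
  simp [alt4_act]

lemma act_map {L : Type*} [CommRing L] (s : K →+* L) (g : Matrix (Fin 4) (Fin 4) K) (x : Fin 6 → K) :
    act (g.map s) (fun i => s (x i)) = fun i => s (act g x i) := by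
  ext i
  fin_cases i <;> simp [act, upper, alt4, Matrix.mul_apply, Fin.sum_univ_four]

lemma det4 (g : Matrix (Fin 4) (Fin 4) K) :
    g.det =
      (g 0 0 * g 1 1 - g 0 1 * g 1 0) * (g 2 2 * g 3 3 - g 2 3 * g 3 2) -
      (g 0 0 * g 1 2 - g 0 2 * g 1 0) * (g 2 1 * g 3 3 - g 2 3 * g 3 1) +
      (g 0 0 * g 1 3 - g 0 3 * g 1 0) * (g 2 1 * g 3 2 - g 2 2 * g 3 1) +
      (g 0 1 * g 1 2 - g 0 2 * g 1 1) * (g 2 0 * g 3 3 - g 2 3 * g 3 0) -
      (g 0 1 * g 1 3 - g 0 3 * g 1 1) * (g 2 0 * g 3 2 - g 2 2 * g 3 0) +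
      (g 0 2 * g 1 3 - g 0 3 * g 1 2) * (g 2 0 * g 3 1 - g 2 1 * g 3 0) := by
  simp [Matrix.det_succ_row_zero, Fin.sum_univ_succ, Fin.succAbove, Matrix.submatrix_apply]
  ring

set_option maxHeartbeats 1000000 in
lemma pf_act (g : Matrix (Fin 4) (Fin 4) K) (x : Fin 6 → K) : pf (act g x) = g.det * pf x := by
  rw [det4]
  simp [pf, act, upper, alt4, Matrix.mul_apply, Fin.sum_univ_four]
  ring

set_option maxHeartbeats 4000000 in
lemma dual_act (g : Matrix (Fin 4) (Fin 4) K) (x : Fin 6 → K) :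
    act g.transpose (dl (act g x)) = g.det • dl x := by
  rw [det4]
  ext i
  fin_cases i <;>
    simp [dl, act, upper, alt4, Matrix.mul_apply, Fin.sum_univ_four] <;> ring

/-- Only scalars act trivially. -/
lemma scalar_of_act_eq (g : Matrix (Fin 4) (Fin 4) K) (hdet : g.det = 1)
    (h : ∀ x, act g x = x) : ∃ c : K, c * c = 1 ∧ g = c • (1 : Matrix (Fin 4) (Fin 4) K) := by
  have hA : ∀ x, g * alt4 x * g.transpose = alt4 x := fun x => by rw [← alt4_act, h]
  have hB : ∀ x, g.transpose * alt4 x * g = alt4 x := fun x => by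
    have e := dual_act g (dl x)
    rw [h, hdet, one_smul] at e
    have hdd : ∀ y : Fin 6 → K, dl (dl y) = y := fun y => by ext i; fin_cases i <;> simp [dl]
    rw [hdd] at e
    have e' := congrArg alt4 e
    rwa [alt4_act, Matrix.transpose_transpose] at e'
  have hcomm : ∀ x y, g * (alt4 x * alt4 y) = alt4 x * alt4 y * g := fun x y => by
    calc g * (alt4 x * alt4 y)
        = g * (alt4 x * (g.transpose * alt4 y * g)) := by rw [hB]
      _ = (g * alt4 x * g.transpose) * alt4 y * g := by simp only [Matrix.mul_assoc]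
      _ = _ := by rw [hA, Matrix.mul_assoc]
  have a := hcomm ![1, 0, 0, 0, 0, 0] ![0, 0, 0, 1, 0, 0]
  have b := hcomm ![0, 1, 0, 0, 0, 0] ![0, 0, 0, 0, 0, 1]
  have c := hcomm ![0, 0, 1, 0, 0, 0] ![0, 0, 0, 0, 1, 0]
  have d := hcomm ![0, 0, 0, 1, 0, 0] ![1, 0, 0, 0, 0, 0]
  refine ⟨g 0 0, ?_, ?_⟩
  · have h01 := congrFun (congrFun (hA ![1, 0, 0, 0, 0, 0]) 0) 1
    have q := fun i j => congrFun (congrFun a i) j
    have r := fun i j => congrFun (congrFun b i) j
    have s := fun i j => congrFun (congrFun c i) j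
    have t := fun i j => congrFun (congrFun d i) j
    simp [alt4, Matrix.mul_apply, Fin.sum_univ_four, Fin.forall_fin_succ] at h01 q r s t
    grind
  · ext i j
    have q := fun i j => congrFun (congrFun a i) j
    have r := fun i j => congrFun (congrFun b i) j
    have s := fun i j => congrFun (congrFun c i) j
    have t := fun i j => congrFun (congrFun d i) j
    simp [alt4, Matrix.mul_apply, Fin.sum_univ_four, Fin.forall_fin_succ] at q r s t
    fin_cases i <;> fin_cases j <;> simp <;> grind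

/-- The action as a linear map. -/
def actLin (g : Matrix (Fin 4) (Fin 4) K) : (Fin 6 → K) →ₗ[K] (Fin 6 → K) where
  toFun := act g
  map_add' x y := alt4_injective (by simp [alt4_act, alt4_add, Matrix.mul_add, Matrix.add_mul])
  map_smul' c x := alt4_injective (by simp [alt4_act, alt4_smul])

end Cfsg.Agent.Lib.Classical.ExcIso
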