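import Cfsg.Agent.Lib.Classical.ExcIso.Common
import Cfsg.Agent.Lib.Classical.Simple
import Cfsg.Agent.Lib.Classical.Order

/-!
Sandwich representations and facts about `SL₂`.
-/

set_option autoImplicit false

namespace Cfsg.Agent.Lib.Classical.ExcIso

open Matrix
open scoped commutatorElement

/-- Coordinates of a space of matrices over an extension. -/
structure Emb (F L : Type*) [Field F] [Field L] (ι : Type) (n : Type) where
  σ : F →+* L
  em : (ι → F) → Matrix n n L
  add : ∀ x y, em (x + y) = em x + em y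
  smul : ∀ (c : F) x, em (c • x) = σ c • em x
  inj : Function.Injective em

variable {F L : Type*} [Field F] [Field L] {ι : Type} [Fintype ι] [DecidableEq ι] {n : Type}
  [Fintype n] [DecidableEq n]

/-- Two-sided multiplication in coordinates. -/
noncomputable def sand (E : Emb F L ι n) (A B : Matrix n n L) (h : ∀ x, ∃ y, E.em y = A * E.em x * B) :
    (ι → F) →ₗ[F] (ι → F) where
  toFun x := (h x).choose
  map_add' x y := E.inj (by
    rw [(h (x + y)).choose_spec, E.add, E.add, (h x).choose_spec, (h y).choose_spec, Matrix.mul_add,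
      Matrix.add_mul])
  map_smul' c x := E.inj (by
    rw [(h (c • x)).choose_spec, RingHom.id_apply, E.smul, E.smul, (h x).choose_spec, Matrix.mul_smul,
      Matrix.smul_mul])

omit [Fintype ι] [DecidableEq ι] [DecidableEq n] in
lemma em_sand (E : Emb F L ι n) (A B : Matrix n n L) (h : ∀ x, ∃ y, E.em y = A * E.em x * B)
    (x : ι → F) : E.em (sand E A B h x) = A * E.em x * B :=
  (h x).choose_spec

variable {G : Type*} [Group G]

/-- A sandwich representation by isometries. -/
noncomputable def sandHom (E : Emb F L ι n) (f : (ι → F) → F) (A B : G → Matrix n n L)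
    (hA : ∀ g h, A (g * h) = A g * A h) (hB : ∀ g h, B (g * h) = B h * B g) (hA1 : A 1 = 1)
    (hB1 : B 1 = 1) (hcl : ∀ g x, ∃ y, E.em y = A g * E.em x * B g)
    (hf : ∀ g x y, E.em y = A g * E.em x * B g → f y = f x) : G →* Cfsg.isometryGroup F f :=
  repHom f (fun g => sand E (A g) (B g) (hcl g))
    (fun g h x => E.inj (by rw [em_sand, em_sand, em_sand, hA, hB]; simp only [Matrix.mul_assoc]))
    (fun x => E.inj (by rw [em_sand, hA1, hB1, Matrix.one_mul, Matrix.mul_one]))
    (fun g x => hf g x _ (em_sand E _ _ _ x))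

lemma fixed_of_mem_ker {E : Emb F L ι n} {f : (ι → F) → F} {A B : G → Matrix n n L}
    {hA : ∀ g h, A (g * h) = A g * A h} {hB : ∀ g h, B (g * h) = B h * B g} {hA1 : A 1 = 1}
    {hB1 : B 1 = 1} {hcl : ∀ g x, ∃ y, E.em y = A g * E.em x * B g}
    {hf : ∀ g x y, E.em y = A g * E.em x * B g → f y = f x} {g : G}
    (h : g ∈ (sandHom E f A B hA hB hA1 hB1 hcl hf).ker) (x : ι → F) :
    A g * E.em x * B g = E.em x := by
  rw [← em_sand E (A g) (B g) (hcl g) x, mem_ker_repHom.1 h x]

/-! ### `SL₂` -/

variable {K : Type*} [Field K]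

lemma sl_coe_mul (g h : Matrix.SpecialLinearGroup (Fin 2) K) :
    ((g * h : Matrix.SpecialLinearGroup (Fin 2) K) : Matrix (Fin 2) (Fin 2) K) =
      (g : Matrix (Fin 2) (Fin 2) K) * (h : Matrix (Fin 2) (Fin 2) K) := rfl

lemma sl2_central {g : SpecialLinearGroup (Fin 2) K}
    (h01 : (g : Matrix (Fin 2) (Fin 2) K) 0 1 = 0) (h10 : (g : Matrix (Fin 2) (Fin 2) K) 1 0 = 0)
    (hd : (g : Matrix (Fin 2) (Fin 2) K) 0 0 = (g : Matrix (Fin 2) (Fin 2) K) 1 1) :
    g ∈ Subgroup.center (SpecialLinearGroup (Fin 2) K) ∧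
      (g : Matrix (Fin 2) (Fin 2) K) 0 0 * (g : Matrix (Fin 2) (Fin 2) K) 0 0 = 1 := by
  have hdet := g.det_coe
  rw [Matrix.det_fin_two, h01, h10, ← hd] at hdet
  have e : (g : Matrix (Fin 2) (Fin 2) K) = (g : Matrix (Fin 2) (Fin 2) K) 0 0 • (1 : Matrix _ _ K) := by
    ext i j
    fin_cases i <;> fin_cases j <;> simp [h01, h10, hd]
  refine ⟨Subgroup.mem_center_iff.2 fun h => Subtype.ext ?_, by linear_combination hdet⟩
  change (h : Matrix (Fin 2) (Fin 2) K) * (g : Matrix (Fin 2) (Fin 2) K) =
    (g : Matrix (Fin 2) (Fin 2) K) * (h : Matrix (Fin 2) (Fin 2) K)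
  rw [e]
  simp

/-- The kernel of a map is small when it consists of scalars. -/
lemma card_ker_le {H : Type*} [Group H] [Finite K] (ψ : G →* H) (χ : G → K)
    (h1 : ∀ g ∈ ψ.ker, χ g * χ g = 1) (h2 : ∀ g ∈ ψ.ker, ∀ g' ∈ ψ.ker, χ g = χ g' → g = g') :
    Nat.card ψ.ker ≤ rootsTwo K :=
  (Nat.card_le_card_of_injective (fun g : ψ.ker => (⟨χ g.1, h1 g.1 g.2⟩ : {c : K // c * c = 1}))
    fun a b h => Subtype.ext (h2 _ a.2 _ b.2 (congrArg Subtype.val h))).trans (card_sqrt_one_le K)

lemma sl2_ext {g g' : SpecialLinearGroup (Fin 2) K} (h01 : (g : Matrix (Fin 2) (Fin 2) K) 0 1 = 0)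
    (h10 : (g : Matrix (Fin 2) (Fin 2) K) 1 0 = 0)
    (hd : (g : Matrix (Fin 2) (Fin 2) K) 0 0 = (g : Matrix (Fin 2) (Fin 2) K) 1 1)
    (h01' : (g' : Matrix (Fin 2) (Fin 2) K) 0 1 = 0) (h10' : (g' : Matrix (Fin 2) (Fin 2) K) 1 0 = 0)
    (hd' : (g' : Matrix (Fin 2) (Fin 2) K) 0 0 = (g' : Matrix (Fin 2) (Fin 2) K) 1 1)
    (he : (g : Matrix (Fin 2) (Fin 2) K) 0 0 = (g' : Matrix (Fin 2) (Fin 2) K) 0 0) : g = g' := by
  refine Subtype.ext (Matrix.ext fun i j => ?_)
  fin_cases i <;> fin_cases j
  · exact he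
  · exact h01.trans h01'.symm
  · exact h10.trans h10'.symm
  · exact hd.symm.trans (he.trans hd')

/-- `SL₂` has trivial second centre. -/
lemma sl2_hc (g : SpecialLinearGroup (Fin 2) K)
    (hg : ∀ h, ⁅g, h⁆ ∈ Subgroup.center (SpecialLinearGroup (Fin 2) K)) :
    g ∈ Subgroup.center (SpecialLinearGroup (Fin 2) K) := by
  have key : ∀ (i j : Fin 2) (hij : i ≠ j),
      (g : Matrix (Fin 2) (Fin 2) K) * Matrix.transvection i j 1 =
        Matrix.transvection i j 1 * (g : Matrix (Fin 2) (Fin 2) K) := by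
    intro i j hij
    set u : SpecialLinearGroup (Fin 2) K := SpecialLinearGroup.transvection hij 1
    obtain ⟨r, hr, hre⟩ := Matrix.SpecialLinearGroup.mem_center_iff.1 (hg u)
    have hconj : ((g * u * g⁻¹ : SpecialLinearGroup (Fin 2) K) : Matrix (Fin 2) (Fin 2) K) =
        r • Matrix.transvection i j 1 := by
      have e : g * u * g⁻¹ = ⁅g, u⁆ * u := by rw [commutatorElement_def]; group
      rw [e, sl_coe_mul, ← hre]
      simp [u, SpecialLinearGroup.transvection_coe, Matrix.transvection, ← Matrix.smul_one_eq_diagonal,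
        Matrix.scalar_apply]
    have htr := congrArg Matrix.trace hconj
    rw [sl_coe_mul, Matrix.trace_mul_comm, ← sl_coe_mul,
      ← mul_assoc, inv_mul_cancel, one_mul, Matrix.trace_smul] at htr
    have ht2 : (Matrix.transvection i j (1 : K)).trace = 2 := by
      fin_cases i <;> fin_cases j <;> simp [Matrix.transvection] at hij ⊢
    rw [show ((u : SpecialLinearGroup (Fin 2) K) : Matrix (Fin 2) (Fin 2) K) =
      Matrix.transvection i j 1 from SpecialLinearGroup.transvection_coe hij 1, ht2, smul_eq_mul] at htr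
    have hr1 : r = 1 := sub_eq_zero.1 ((pow_eq_zero_iff two_ne_zero).1 (by
      rw [Fintype.card_fin] at hr
      linear_combination hr + htr))
    rw [hr1, one_smul] at hconj
    have hu : (u : Matrix (Fin 2) (Fin 2) K) = Matrix.transvection i j 1 :=
      SpecialLinearGroup.transvection_coe hij 1
    calc (g : Matrix (Fin 2) (Fin 2) K) * Matrix.transvection i j 1
        = ((g * u : Matrix.SpecialLinearGroup (Fin 2) K) : Matrix (Fin 2) (Fin 2) K) := by
          rw [sl_coe_mul, hu]
      _ = ((g * u * g⁻¹ * g : Matrix.SpecialLinearGroup (Fin 2) K) : Matrix (Fin 2) (Fin 2) K) := by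
          rw [inv_mul_cancel_right]
      _ = _ := by rw [sl_coe_mul, hconj]
  have a := key 0 1 (by decide)
  have b := key 1 0 (by decide)
  have a00 := congrFun (congrFun a 0) 0
  have a01 := congrFun (congrFun a 0) 1
  have b00 := congrFun (congrFun b 0) 0
  simp [Matrix.transvection, Matrix.mul_apply, Fin.sum_univ_two] at a00 a01 b00
  exact (sl2_central b00 a00 (by linear_combination a01)).1

/-- `SL₂` is perfect over fields with at least four elements. -/
lemma sl2_perfect [Fintype K] (hK : 4 ≤ Fintype.card K) :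
    commutator (SpecialLinearGroup (Fin 2) K) = ⊤ := by
  classical
  obtain ⟨t, ht⟩ : ∃ t, t ∉ ({0, 1, -1} : Finset K) := by
    by_contra! h
    have := (Finset.card_le_card (s := Finset.univ) fun x _ => h x).trans Finset.card_le_three
    rw [Finset.card_univ] at this
    omega
  simp only [Finset.mem_insert, Finset.mem_singleton, not_or] at ht
  have ht2 : t ^ 2 - 1 ≠ 0 := fun h => by
    rcases mul_self_eq_one_iff.1 (show t * t = 1 by linear_combination h) with h | h
    exacts [ht.2.1 h, ht.2.2 h]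
  refine eq_top_iff.2 fun A _ => ?_
  refine SL_transvection_induction (· ∈ commutator (SpecialLinearGroup (Fin 2) K)) (one_mem _) ?_
    (fun _ _ => mul_mem) A
  intro i j hij c
  let D : Fin 2 → SpecialLinearGroup (Fin 2) K := fun i =>
    ⟨Matrix.diagonal fun k => if k = i then t else t⁻¹, by
      fin_cases i <;> simp [Matrix.det_diagonal, Fin.prod_univ_two, ht.1]⟩
  have e : SpecialLinearGroup.transvection hij c =
      ⁅D i, SpecialLinearGroup.transvection hij (c / (t ^ 2 - 1))⁆ := by
    rw [commutatorElement_def, eq_mul_inv_iff_mul_eq, eq_mul_inv_iff_mul_eq]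
    refine Subtype.ext ?_
    rw [sl_coe_mul, sl_coe_mul, sl_coe_mul]
    refine Matrix.ext fun a b => ?_
    fin_cases i <;> fin_cases j <;> first | exact absurd rfl hij | skip
    all_goals
      fin_cases a <;> fin_cases b <;>
        simp [D, SpecialLinearGroup.transvection_coe, Matrix.mul_apply,
          Fin.sum_univ_two] <;> field_simp [ht.1] <;> ring
  rw [e]
  exact Subgroup.commutator_mem_commutator (Subgroup.mem_top _) (Subgroup.mem_top _)

/-- In odd characteristic `SL₂` has no quotient of order two. -/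
lemma sl2_sign (h2 : (2 : K) ≠ 0) (θ : SpecialLinearGroup (Fin 2) K →* ℤˣ) : θ = 1 := by
  refine MonoidHom.ext fun A => ?_
  refine SL_transvection_induction (fun A => θ A = 1) (map_one θ) ?_
    (fun A B hA hB => by rw [map_mul, hA, hB, one_mul]) A
  intro i j hij c
  have e : SpecialLinearGroup.transvection hij c =
      SpecialLinearGroup.transvection hij (c / 2) * SpecialLinearGroup.transvection hij (c / 2) := by
    refine Subtype.ext ?_
    rw [sl_coe_mul, SpecialLinearGroup.transvection_coe,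
      SpecialLinearGroup.transvection_coe]
    change Matrix.transvection i j c = Matrix.transvection i j (c / 2) * Matrix.transvection i j (c / 2)
    rw [Matrix.transvection_mul_transvection_same _ _ hij,
      ← add_div, ← two_mul, mul_div_cancel_left₀ _ h2]
  rw [e, map_mul, Int.units_mul_self]

end Cfsg.Agent.Lib.Classical.ExcIso
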